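import Cfsg.Agent.H730.OZ.Asm
import Cfsg.Prelude.Def_Classification2
import Cfsg.Prelude.Def_LieTypeChar

/-!
# S4842: the case list (helper730)

`Rows` collects the rows of all families; `row_known` distributes a known simple group.
-/

set_option autoImplicit false

open Cfsg

namespace Cfsg.Agent.H730.OZ

universe u

/-- The rows of all families of non-abelian known simple groups, in the universe `u`. -/
structure Rows : Prop where
  alt : ∀ {S : Type u} [Group S] [Finite S], IsSimpleGroup S → IsAlternating S → Row S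
  psl : ∀ {S : Type u} [Group S] [Finite S], IsSimpleGroup S → IsPSL S → Row S
  psp : ∀ {S : Type u} [Group S] [Finite S], IsSimpleGroup S → IsPSp S → Row S
  psu : ∀ {S : Type u} [Group S] [Finite S], IsSimpleGroup S → IsPSU S → Row S
  oodd : ∀ {S : Type u} [Group S] [Finite S], IsSimpleGroup S → IsPOmegaOdd S → Row S
  oplus : ∀ {S : Type u} [Group S] [Finite S], IsSimpleGroup S → IsPOmegaPlus S → Row S
  ominus : ∀ {S : Type u} [Group S] [Finite S], IsSimpleGroup S → IsPOmegaMinus S → Row S
  g2 : ∀ {S : Type u} [Group S] [Finite S], IsSimpleGroup S → Lie.IsoChevG2 S → Row S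
  f4 : ∀ {S : Type u} [Group S] [Finite S], IsSimpleGroup S → Lie.IsoF4 S → Row S
  e6 : ∀ {S : Type u} [Group S] [Finite S], IsSimpleGroup S → Lie.IsoChevE6 S → Row S
  e7 : ∀ {S : Type u} [Group S] [Finite S], IsSimpleGroup S → Lie.IsoE7 S → Row S
  e8 : ∀ {S : Type u} [Group S] [Finite S], IsSimpleGroup S → Lie.IsoE8 S → Row S
  te6 : ∀ {S : Type u} [Group S] [Finite S], IsSimpleGroup S → Lie.Iso2E6 S → Row S
  td4 : ∀ {S : Type u} [Group S] [Finite S], IsSimpleGroup S → Lie.Iso3D4 S → Row S
  sz : ∀ {S : Type u} [Group S] [Finite S], IsSimpleGroup S → Lie.IsoSuzuki S → Row S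
  ree : ∀ {S : Type u} [Group S] [Finite S], IsSimpleGroup S → Lie.IsoRee S → Row S
  tf4 : ∀ {S : Type u} [Group S] [Finite S], IsSimpleGroup S → Lie.Iso2F4 S → Row S
  tits : ∀ {S : Type u} [Group S] [Finite S], IsSimpleGroup S → Lie.IsoTits S → Row S
  spor : ∀ {S : Type u} [Group S] [Finite S], IsSimpleGroup S → IsSporadicGroup S → Row S

/-- All known simple groups. -/
theorem row_known (R : Rows.{u}) {S : Type u} [Group S] [Finite S] (hs : IsSimpleGroup S)
    (h : IsKnownSimple' S) (hna : ¬ IsMulCommutative S) : Row S := by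
  rcases h with h | h | h | h | h | h | h | h | h | h
  · exfalso
    apply hna
    have : Fact (Nat.card S).Prime := ⟨h⟩
    have h1 : IsCyclic S := isCyclic_of_prime_card rfl
    exact ⟨⟨fun a b => (IsCyclic.commGroup (α := S)).mul_comm a b⟩⟩
  · exact R.alt hs h
  · exact R.psl hs h
  · exact R.psp hs h
  · exact R.psu hs h
  · exact R.oodd hs h
  · exact R.oplus hs h
  · exact R.ominus hs h
  · rcases h with h | h | h | h | h | h | h | h | h | h | h
    · exact R.g2 hs h
    · exact R.f4 hs h
    · exact R.e6 hs h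
    · exact R.e7 hs h
    · exact R.e8 hs h
    · exact R.te6 hs h
    · exact R.td4 hs h
    · exact R.sz hs h
    · exact R.ree hs h
    · exact R.tf4 hs h
    · exact R.tits hs h
  · exact R.spor hs h

end Cfsg.Agent.H730.OZ
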