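import Cfsg.Agent.H730.OZ.Known
import Cfsg.Agent.H956.OZ.Row
import Cfsg.Agent.H846.OZ.Odd

/-!
# S4842: the alternating groups without hypotheses (helper730)
-/

set_option autoImplicit false

open Cfsg

namespace Cfsg.Agent.H730.OZ

universe u

theorem row_alternating {S : Type u} [Group S] [Finite S] (h : IsAlternating S) : Row S :=
  Cfsg.Agent.H956.OZ.row_alt h fun ⟨_, _, _, hF, ⟨e⟩⟩ => Cfsg.Agent.H846.OZ.row_psl2 (by omega) e

end Cfsg.Agent.H730.OZ
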